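import Groth.Agent.Sga7.H558.QuadBlow
import Groth.Agent.Sga7.H150.Global

/-!
# The blow-up input for the strict normal crossings theorem
-/

set_option autoImplicit false
universe u

open CategoryTheory CategoryTheory.Limits AlgebraicGeometry IsLocalRing

namespace Groth.Agent.Sga7.H558.QuadInput

open Groth.Agent.Dix.PointIdeal

/-- `H150.Global.QuadBlow` holds. -/
theorem quadBlow : Groth.Agent.Sga7.H150.Global.QuadBlow.{u} := by
  intro X _ x hx hreg hdim
  have hdom : IsDomain (X.presheaf.stalk x) := Groth.Agent.CalgA.RegBasic.isDomain _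
  obtain ⟨X', b, hb⟩ := Groth.Agent.Flat2C.BlowExist.exists_isBlowUp (pt x hx)
  refine ⟨X', b, pt x hx, hb, Groth.Agent.Models.RMBlow.isFiniteTypeIdeal _, fun z hz => ?_, fun x' hx' => ?_⟩
  · exact (mem_support_pt x hx z).1 hz
  · exact ⟨QuadBlow.isRegularLocalRing_stalk hb hdim x' hx', QuadBlow.isQuad_stalkMap hb x' hx'⟩

end Groth.Agent.Sga7.H558.QuadInput
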