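import Groth.Agent.Sga7.H558.QuadBlow
import Groth.Agent.Sga7.H592.SncAlg
import Groth.Agent.Models.H69.Contr

/-!
# Blow-ups of closed points and the image of a uniformizer in the local rings
-/

set_option autoImplicit false
universe u

open CategoryTheory CategoryTheory.Limits AlgebraicGeometry IsLocalRing

namespace Groth.Agent.Sga7.H558.QuadStep

open Groth.Agent.Sga7.H744.Defs Groth.Agent.Dix.PointIdeal

variable {R : Type u} [CommRing R]

theorem stalkElt_comp {X X1 : Scheme.{u}} (b : X1 ⟶ X) (p : X ⟶ Spec (CommRingCat.of R)) (x1 : X1) (r : R) :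
    stalkElt (b ≫ p) x1 r = (b.stalkMap x1).hom (stalkElt p (b x1) r) := by
  have h := Scheme.Hom.germ_stalkMap b ⊤ x1 trivial
  have h1 := congrArg (fun t => t.hom (p.appTop.hom ((Scheme.ΓSpecIso (CommRingCat.of R)).inv.hom r))) h
  have h2 : (b ≫ p).appTop = p.appTop ≫ b.appTop := Scheme.Hom.comp_appTop _ _
  change (X1.presheaf.germ ⊤ x1 trivial).hom ((b ≫ p).appTop.hom _) = _
  rw [h2]
  exact h1.symm

theorem isSNCElt_iff_away {X X1 : Scheme.{u}} {b : X1 ⟶ X} (p : X ⟶ Spec (CommRingCat.of R)) {x : X}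
    {hx : IsClosed ({x} : Set X)} (hb : BlowUp.IsBlowUp b (pt x hx)) (x1 : X1) (h : b x1 ≠ x) (r : R) :
    IsSNCElt (X1.presheaf.stalk x1) (stalkElt (b ≫ p) x1 r) ↔
      IsSNCElt (X.presheaf.stalk (b x1)) (stalkElt p (b x1) r) := by
  have := Groth.Agent.Models.H69.Contr.isIso_stalkMap hb x1 h
  rw [stalkElt_comp]
  exact (Groth.Agent.Sga7.H592.SncAlg.isSNCElt_iff_of_ringEquiv
    (asIso (b.stalkMap x1)).commRingCatIsoToRingEquiv _).symm

theorem isRegularLocalRing_stalk_away {X X1 : Scheme.{u}} {b : X1 ⟶ X} {x : X}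
    {hx : IsClosed ({x} : Set X)} (hb : BlowUp.IsBlowUp b (pt x hx)) (x1 : X1) (h : b x1 ≠ x)
    [IsRegularLocalRing (X.presheaf.stalk (b x1))] : IsRegularLocalRing (X1.presheaf.stalk x1) := by
  have := Groth.Agent.Models.H69.Contr.isIso_stalkMap hb x1 h
  exact IsRegularLocalRing.of_ringEquiv (asIso (b.stalkMap x1)).commRingCatIsoToRingEquiv

end Groth.Agent.Sga7.H558.QuadStep
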